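import Mathlib
import Cfsg.Agent.Lib.Helper81.AQDefs

/-!
Project AQ (helper81, for S3911), piece FRAT: a Frattini argument modulo `M`.
-/

set_option autoImplicit false

namespace Cfsg.Agent.Lib.Helper81.AQ

open scoped Pointwise

variable {G : Type*} [Group G]

-- piece FRAT
theorem frattini [Finite G] (M : Subgroup G) [M.Normal] (L L' Z : Subgroup G)
    (hab : AbMod L M) (hL' : L' ≤ L) (hZ : Z ≤ L') (p : ℕ) [Fact p.Prime]
    (hZcard : Nat.card Z = p ^ (Nat.card L').factorization p) (l : G) (hl : l ∈ L') :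
    ∃ n ∈ L', ∃ m ∈ M, Nrm Z n ∧ l = n * m := by
  classical
  obtain ⟨K, hKdef⟩ : ∃ K : Subgroup G, K = Z ⊔ (M ⊓ L') := ⟨_, rfl⟩
  have hKL : K ≤ L' := by rw [hKdef]; exact sup_le hZ inf_le_right
  have hZK : Z ≤ K := by rw [hKdef]; exact le_sup_left
  have hNK : M ⊓ L' ≤ K := by rw [hKdef]; exact le_sup_right
  obtain ⟨Zl, hZldef⟩ : ∃ Zl : Subgroup G, Zl = Z.map (MulAut.conj l).toMonoidHom := ⟨_, rfl⟩
  have hZlmem : ∀ x, x ∈ Zl ↔ ∃ z ∈ Z, l * z * l⁻¹ = x := by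
    intro x
    rw [hZldef, Subgroup.mem_map]
    rfl
  have hZlK : Zl ≤ K := by
    intro x hx
    obtain ⟨z, hz, rfl⟩ := (hZlmem x).mp hx
    have hzL' : z ∈ L' := hZ hz
    have hc : l * z * l⁻¹ * z⁻¹ ∈ M ⊓ L' :=
      ⟨hab l (hL' hl) z (hL' hzL'),
        L'.mul_mem (L'.mul_mem (L'.mul_mem hl hzL') (L'.inv_mem hl)) (L'.inv_mem hzL')⟩
    have e : l * z * l⁻¹ = (l * z * l⁻¹ * z⁻¹) * z := by group
    rw [e]
    exact K.mul_mem (hNK hc) (hZK hz)
  have hZlcard : Nat.card Zl = Nat.card Z := by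
    rw [hZldef]
    exact Subgroup.card_map_of_injective (MulAut.conj l).injective
  have hK0 : Nat.card K ≠ 0 := Nat.card_pos.ne'
  have hL0 : Nat.card L' ≠ 0 := Nat.card_pos.ne'
  have hval : (Nat.card K).factorization p = (Nat.card L').factorization p := by
    apply le_antisymm
    · exact (Nat.factorization_le_iff_dvd hK0 hL0).mpr (Subgroup.card_dvd_of_le hKL) p
    · have hdvd : p ^ (Nat.card L').factorization p ∣ Nat.card K := by
        rw [← hZcard]
        exact Subgroup.card_dvd_of_le hZK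
      exact (Nat.Prime.pow_dvd_iff_le_factorization (Fact.out : p.Prime) hK0).mp hdvd
  have hP : Nat.card (Z.subgroupOf K) = p ^ (Nat.card K).factorization p := by
    rw [hval, ← hZcard]
    exact Nat.card_congr (Subgroup.subgroupOfEquivOfLe hZK).toEquiv
  have hQ : Nat.card (Zl.subgroupOf K) = p ^ (Nat.card K).factorization p := by
    rw [hval, ← hZcard, ← hZlcard]
    exact Nat.card_congr (Subgroup.subgroupOfEquivOfLe hZlK).toEquiv
  obtain ⟨k, hk⟩ := MulAction.exists_smul_eq K (Sylow.ofCard (Z.subgroupOf K) hP)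
    (Sylow.ofCard (Zl.subgroupOf K) hQ)
  have key : ∀ z ∈ Z, (k : G) * z * (k : G)⁻¹ ∈ Zl := by
    intro z hz
    have hzP : (⟨z, hZK hz⟩ : K) ∈
        ((Sylow.ofCard (Z.subgroupOf K) hP : Sylow p K) : Subgroup K) := by
      rw [Sylow.coe_ofCard]
      exact Subgroup.mem_subgroupOf.mpr hz
    have h1 := Subgroup.smul_mem_pointwise_smul _ (MulAut.conj k) _ hzP
    have h2 : MulAut.conj k • ((Sylow.ofCard (Z.subgroupOf K) hP : Sylow p K) : Subgroup K)
        = ((Sylow.ofCard (Zl.subgroupOf K) hQ : Sylow p K) : Subgroup K) := by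
      rw [← hk]
      rfl
    rw [h2, Sylow.coe_ofCard, Subgroup.mem_subgroupOf] at h1
    exact h1
  have hn' : l⁻¹ * (k : G) ∈ Subgroup.normalizer (Z : Set G) := by
    apply Subgroup.mem_normalizer_fintype
    intro z hz
    obtain ⟨z', hz', e⟩ := (hZlmem _).mp (key z hz)
    have e2 : l⁻¹ * (k : G) * z * (l⁻¹ * (k : G))⁻¹ = z' := by
      have e3 : l⁻¹ * (k : G) * z * (l⁻¹ * (k : G))⁻¹ = l⁻¹ * ((k : G) * z * (k : G)⁻¹) * l := by
        group
      rw [e3, ← e]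
      group
    rw [e2]
    exact hz'
  have hn0 : (k : G)⁻¹ * l ∈ Subgroup.normalizer (Z : Set G) := by
    have h := Subgroup.inv_mem _ hn'
    have e : (l⁻¹ * (k : G))⁻¹ = (k : G)⁻¹ * l := by group
    rwa [e] at h
  have hkZM : (k : G) ∈ ((Z ⊔ M : Subgroup G) : Set G) := by
    have h1 : K ≤ Z ⊔ M := by
      rw [hKdef]
      exact sup_le le_sup_left (le_trans inf_le_left le_sup_right)
    exact h1 k.2
  rw [Subgroup.mul_normal Z M] at hkZM
  obtain ⟨z1, hz1, m', hm', hkeq⟩ := Set.mem_mul.mp hkZM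
  refine ⟨z1 * ((k : G)⁻¹ * l), ?_, ((k : G)⁻¹ * l)⁻¹ * m' * ((k : G)⁻¹ * l), ?_, ?_, ?_⟩
  · exact L'.mul_mem (hZ hz1) (L'.mul_mem (L'.inv_mem (hKL k.2)) hl)
  · exact Subgroup.Normal.conj_mem' ‹M.Normal› m' hm' _
  · have hmem : z1 * ((k : G)⁻¹ * l) ∈ Subgroup.normalizer (Z : Set G) :=
      Subgroup.mul_mem _ (Subgroup.le_normalizer hz1) hn0
    exact Subgroup.mem_normalizer_iff.mp hmem
  · rw [← hkeq]
    group

end Cfsg.Agent.Lib.Helper81.AQ
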