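import Cfsg.Agent.Lib.Helper80.BaerDefs
import Cfsg.Agent.S0675

set_option autoImplicit false
set_option linter.style.haveILetI false

namespace Cfsg.Agent.Lib.Helper42

open Cfsg.Agent.Lib.Helper80
open scoped Pointwise

section

variable {p : ℕ} [Fact p.Prime] {H V : Type*} [Group H] [Finite H] [AddCommGroup V] [Finite V]
  [DistribMulAction H V]

theorem baer_unique {ι : Type*} [Fintype ι] (W : ι → AddSubgroup V)
    (hind : ∀ f : ι → V, (∀ i, f i ∈ W i) → ∑ i, f i = 0 → ∀ i, f i = 0)
    (f g : ι → V) (hf : ∀ i, f i ∈ W i) (hg : ∀ i, g i ∈ W i) (h : ∑ i, f i = ∑ i, g i) :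
    f = g := by
  funext i
  have := hind (fun i => f i - g i) (fun i => (W i).sub_mem (hf i) (hg i))
    (by rw [Finset.sum_sub_distrib, h, sub_self]) i
  exact sub_eq_zero.mp this

theorem baer_single_mem {ι : Type*} [DecidableEq ι] (W : ι → AddSubgroup V) {i : ι} {w : V}
    (hw : w ∈ W i) (k : ι) : (Pi.single i w : ι → V) k ∈ W k := by
  by_cases hk : k = i
  · subst hk; simpa using hw
  · rw [Pi.single_eq_of_ne hk]; exact (W k).zero_mem

theorem baer_disj {ι : Type*} [Fintype ι] (W : ι → AddSubgroup V)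
    (hind : ∀ f : ι → V, (∀ i, f i ∈ W i) → ∑ i, f i = 0 → ∀ i, f i = 0)
    {i j : ι} (hij : i ≠ j) {w : V} (hi : w ∈ W i) (hj : w ∈ W j) : w = 0 := by
  classical
  have := baer_unique W hind (Pi.single i w) (Pi.single j w) (baer_single_mem W hi)
    (baer_single_mem W hj) (by simp)
  have h2 := congrFun this i
  rw [Pi.single_eq_same, Pi.single_eq_of_ne hij] at h2
  exact h2

theorem baer_three {ι : Type*} [Fintype ι] (W : ι → AddSubgroup V)
    (hind : ∀ f : ι → V, (∀ i, f i ∈ W i) → ∑ i, f i = 0 → ∀ i, f i = 0)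
    {k j l : ι} (hkj : k ≠ j) {a b : V} (ha : a ∈ W k) (hb : b ∈ W j) (hab : a + b ∈ W l) :
    a = 0 ∨ b = 0 := by
  classical
  by_cases hlj : l = j
  · left
    subst hlj
    have : a ∈ W l := by
      have := (W l).sub_mem hab hb
      simpa using this
    exact baer_disj W hind hkj ha this
  by_cases hlk : l = k
  · right
    subst hlk
    have : b ∈ W l := by
      have := (W l).sub_mem hab ha
      simpa using this
    exact baer_disj W hind hkj this hb
  left
  have := baer_unique W hind (Pi.single k a + Pi.single j b) (Pi.single l (a + b))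
    (fun i => (W i).add_mem (baer_single_mem W ha i) (baer_single_mem W hb i))
    (baer_single_mem W hab) (by simp [Finset.sum_add_distrib])
  have h2 := congrFun this k
  rw [Pi.add_apply, Pi.single_eq_same, Pi.single_eq_of_ne hkj, Pi.single_eq_of_ne (Ne.symm hlk),
    add_zero] at h2
  exact h2

theorem baer_step1 {ι : Type*} [Fintype ι] (W : ι → AddSubgroup V)
    (hne : ∀ i, W i ≠ ⊥)
    (hind : ∀ f : ι → V, (∀ i, f i ∈ W i) → ∑ i, f i = 0 → ∀ i, f i = 0)
    (hinv : ∀ (h : H) (i : ι) (w : V), w ∈ W i → ∃ j, h • w ∈ W j) (h : H) (i : ι) :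
    ∃ j, ∀ w ∈ W i, h • w ∈ W j := by
  obtain ⟨w0, hw0, hw0ne⟩ := (W i).bot_or_exists_ne_zero.resolve_left (hne i)
  obtain ⟨j, hj⟩ := hinv h i w0 hw0
  refine ⟨j, fun w hw => ?_⟩
  obtain ⟨k, hk⟩ := hinv h i w hw
  obtain ⟨l, hl⟩ := hinv h i (w + w0) ((W i).add_mem hw hw0)
  by_cases hkj : k = j
  · subst hkj; exact hk
  rw [smul_add] at hl
  rcases baer_three W hind hkj hk hj hl with h0 | h0
  · rw [h0]; exact (W j).zero_mem
  · exact absurd ((smul_eq_zero_iff_eq h).mp h0) hw0ne

/-- the induced permutation of the index set -/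
noncomputable def baerPerm {ι : Type*} [Fintype ι] (W : ι → AddSubgroup V)
    (hne : ∀ i, W i ≠ ⊥)
    (hind : ∀ f : ι → V, (∀ i, f i ∈ W i) → ∑ i, f i = 0 → ∀ i, f i = 0)
    (hinv : ∀ (h : H) (i : ι) (w : V), w ∈ W i → ∃ j, h • w ∈ W j) (h : H) (i : ι) : ι :=
  Classical.choose (baer_step1 W hne hind hinv h i)

theorem baerPerm_spec {ι : Type*} [Fintype ι] (W : ι → AddSubgroup V)
    (hne : ∀ i, W i ≠ ⊥)
    (hind : ∀ f : ι → V, (∀ i, f i ∈ W i) → ∑ i, f i = 0 → ∀ i, f i = 0)
    (hinv : ∀ (h : H) (i : ι) (w : V), w ∈ W i → ∃ j, h • w ∈ W j) (h : H) (i : ι) :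
    ∀ w ∈ W i, h • w ∈ W (baerPerm W hne hind hinv h i) :=
  Classical.choose_spec (baer_step1 W hne hind hinv h i)

theorem baerPerm_char {ι : Type*} [Fintype ι] (W : ι → AddSubgroup V)
    (hne : ∀ i, W i ≠ ⊥)
    (hind : ∀ f : ι → V, (∀ i, f i ∈ W i) → ∑ i, f i = 0 → ∀ i, f i = 0)
    (hinv : ∀ (h : H) (i : ι) (w : V), w ∈ W i → ∃ j, h • w ∈ W j) (h : H) (i j : ι)
    (w : V) (hw : w ∈ W i) (hw0 : w ≠ 0) (hj : h • w ∈ W j) :
    baerPerm W hne hind hinv h i = j := by
  by_contra hne'
  have := baer_disj W hind hne' (baerPerm_spec W hne hind hinv h i w hw) hj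
  exact hw0 ((smul_eq_zero_iff_eq h).mp this)

theorem perm_solvable_small {ι : Type*} [Fintype ι] [DecidableEq ι] (h : Fintype.card ι ≤ 3) :
    Group.IsSolvable (Equiv.Perm ι) := by
  have hA : Group.IsSolvable (alternatingGroup ι) := by
    rcases Nat.lt_or_ge (Fintype.card ι) 2 with h1 | h1
    · haveI : Subsingleton (Equiv.Perm ι) := by
        rw [← Fintype.card_le_one_iff_subsingleton, Fintype.card_perm]
        have : Fintype.card ι = 0 ∨ Fintype.card ι = 1 := by omega
        rcases this with h0 | h0 <;> rw [h0] <;> simp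
      haveI : Subsingleton (alternatingGroup ι) := inferInstance
      infer_instance
    · haveI : Nontrivial ι := Fintype.one_lt_card_iff_nontrivial.mp (by omega)
      have hc := two_mul_card_alternatingGroup (α := ι)
      rw [Fintype.card_perm] at hc
      have h3 : Nat.card (alternatingGroup ι) = 1 ∨ Nat.card (alternatingGroup ι) = 3 := by
        have : Fintype.card ι = 2 ∨ Fintype.card ι = 3 := by omega
        rcases this with h0 | h0
        · left
          rw [h0] at hc
          have : (2:ℕ).factorial = 2 := by decide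
          rw [this] at hc
          rw [Nat.card_eq_fintype_card]
          omega
        · right
          rw [h0] at hc
          have : (3:ℕ).factorial = 6 := by decide
          rw [this] at hc
          rw [Nat.card_eq_fintype_card]
          omega
      rcases h3 with h3 | h3
      · haveI : Subsingleton (alternatingGroup ι) :=
          (Nat.card_eq_one_iff_unique.mp h3).1
        infer_instance
      · haveI : Fact (Nat.Prime 3) := ⟨by norm_num⟩
        have hcyc : IsCyclic (alternatingGroup ι) := isCyclic_of_prime_card (p := 3) h3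
        exact Group.isSolvable_of_comm (fun a b => by
          obtain ⟨g, hg⟩ := hcyc.exists_generator
          obtain ⟨m, rfl⟩ := Subgroup.mem_zpowers_iff.mp (hg a)
          obtain ⟨n, rfl⟩ := Subgroup.mem_zpowers_iff.mp (hg b)
          rw [← zpow_add, ← zpow_add, add_comm])
  haveI := hA
  haveI : Group.IsSolvable (ℤˣ) := Group.isSolvable_of_comm (fun a b => mul_comm a b)
  exact Group.isSolvable_of_ker_le_range (alternatingGroup ι).subtype (Equiv.Perm.sign (α := ι))
    (by
      intro x hx
      exact ⟨⟨x, hx⟩, rfl⟩)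

theorem baer_sum_shift {ι : Type*} [Fintype ι] [MulAction H ι] (h : H) (f : ι → V) :
    ∑ k, f (h⁻¹ • k) = ∑ k, f k := Equiv.sum_comp (MulAction.toPerm h⁻¹) f

/-- key 1: stabilizers of finite subsets of the index set have `p`-power index -/
theorem baer_key1 (hm : BaerMin p H V) {ι : Type*} [Fintype ι] [DecidableEq ι] [MulAction H ι]
    (W : ι → AddSubgroup V)
    (hind : ∀ f : ι → V, (∀ i, f i ∈ W i) → ∑ i, f i = 0 → ∀ i, f i = 0)
    (hcomp : ∀ (h : H) (i : ι) (w : V), w ∈ W i → h • w ∈ W (h • i))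
    (w : ι → V) (hw : ∀ i, w i ∈ W i) (hw0 : ∀ i, w i ≠ 0) (I : Finset ι) :
    ∃ m : ℕ, (MulAction.stabilizer H I).index = p ^ m := by
  obtain ⟨k, hk⟩ := hm.orbit (∑ i ∈ I, w i)
  have hle : MulAction.stabilizer H (∑ i ∈ I, w i) ≤ MulAction.stabilizer H I := by
    intro h hh
    rw [MulAction.mem_stabilizer_iff] at hh ⊢
    set f : ι → V := fun k => if k ∈ I then w k else 0 with hf
    set g : ι → V := fun k => h • f (h⁻¹ • k) with hg
    have hfW : ∀ k, f k ∈ W k := by
      intro k
      simp only [hf]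
      split_ifs
      · exact hw k
      · exact (W k).zero_mem
    have hgW : ∀ k, g k ∈ W k := by
      intro k
      have := hcomp h (h⁻¹ • k) (f (h⁻¹ • k)) (hfW _)
      rwa [smul_inv_smul] at this
    have hfs : ∑ k, f k = ∑ i ∈ I, w i := by
      simp only [hf]
      rw [Finset.sum_ite_mem, Finset.univ_inter]
    have hgs : ∑ k, g k = ∑ k, f k := by
      simp only [hg]
      rw [← Finset.smul_sum, baer_sum_shift h f, hfs, hh]
    have hfg : g = f := baer_unique W hind g f hgW hfW hgs
    have hsub : h • I ⊆ I := by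
      intro x hx
      obtain ⟨y, hy, rfl⟩ := Finset.mem_smul_finset.mp hx
      by_contra hcon
      have h1 : g (h • y) = h • w y := by
        simp only [hg, inv_smul_smul, hf, if_pos hy]
      have h2 : f (h • y) = 0 := by
        simp only [hf, if_neg hcon]
      rw [hfg, h2] at h1
      exact hw0 y ((smul_eq_zero_iff_eq h).mp h1.symm)
    exact Finset.eq_of_subset_of_card_le hsub (by rw [Finset.card_smul_finset])
  have hdvd := Subgroup.index_dvd_of_le hle
  rw [hk] at hdvd
  obtain ⟨m, -, hm'⟩ := (Nat.dvd_prime_pow (Fact.out : p.Prime)).mp hdvd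
  exact ⟨m, hm'⟩

/-- key 2: transitivity on the index set -/
theorem baer_key2 (hm : BaerMin p H V) {ι : Type*} [Fintype ι] [DecidableEq ι] [MulAction H ι]
    (W : ι → AddSubgroup V)
    (hind : ∀ f : ι → V, (∀ i, f i ∈ W i) → ∑ i, f i = 0 → ∀ i, f i = 0)
    (hcomp : ∀ (h : H) (i : ι) (w : V), w ∈ W i → h • w ∈ W (h • i))
    (w : ι → V) (hw : ∀ i, w i ∈ W i) (hw0 : ∀ i, w i ≠ 0) (i0 j : ι) :
    ∃ h : H, h • i0 = j := by
  let U : AddSubgroup V :=
    { carrier := {v | ∃ f : ι → V, (∀ k, f k ∈ W k) ∧ (∀ k, (¬ ∃ h : H, h • i0 = k) → f k = 0) ∧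
        ∑ k, f k = v}
      zero_mem' := ⟨fun _ => 0, fun k => (W k).zero_mem, fun _ _ => rfl, by simp⟩
      add_mem' := by
        rintro a b ⟨f, hf1, hf2, rfl⟩ ⟨g, hg1, hg2, rfl⟩
        refine ⟨fun k => f k + g k, fun k => (W k).add_mem (hf1 k) (hg1 k), fun k hk => ?_, ?_⟩
        · simp only [hf2 k hk, hg2 k hk, add_zero]
        · rw [Finset.sum_add_distrib]
      neg_mem' := by
        rintro a ⟨f, hf1, hf2, rfl⟩
        refine ⟨fun k => - f k, fun k => (W k).neg_mem (hf1 k), fun k hk => ?_, ?_⟩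
        · simp only [hf2 k hk, neg_zero]
        · rw [Finset.sum_neg_distrib] }
  have hUinv : ∀ (h : H) (v : V), v ∈ U → h • v ∈ U := by
    rintro h v ⟨f, hf1, hf2, rfl⟩
    refine ⟨fun k => h • f (h⁻¹ • k), fun k => ?_, fun k hk => ?_, ?_⟩
    · have := hcomp h (h⁻¹ • k) (f (h⁻¹ • k)) (hf1 _)
      rwa [smul_inv_smul] at this
    · have : f (h⁻¹ • k) = 0 := by
        apply hf2
        rintro ⟨x, hx⟩
        exact hk ⟨h * x, by rw [mul_smul, hx, smul_inv_smul]⟩
      simp only [this, smul_zero]
    · rw [← Finset.smul_sum, baer_sum_shift h f]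
  have hUmem : w i0 ∈ U := by
    refine ⟨Pi.single i0 (w i0), baer_single_mem W (hw i0), fun k hk => ?_, by simp⟩
    have : k ≠ i0 := by
      rintro rfl
      exact hk ⟨1, one_smul _ _⟩
    exact Pi.single_eq_of_ne this _
  have hUtop : U = ⊤ := by
    rcases hm.R2 U hUinv with h | h
    · exfalso
      rw [h] at hUmem
      exact hw0 i0 (by simpa using hUmem)
    · exact h
  have hj : w j ∈ U := by rw [hUtop]; exact AddSubgroup.mem_top _
  obtain ⟨f, hf1, hf2, hf3⟩ := hj
  have hfe : f = Pi.single j (w j) :=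
    baer_unique W hind f (Pi.single j (w j)) hf1 (baer_single_mem W (hw j)) (by simp [hf3])
  by_contra hcon
  have := hf2 j hcon
  rw [hfe, Pi.single_eq_same] at this
  exact hw0 j this

theorem baer_choose_arith {p m : ℕ} (hpp : p.Prime) (h : p.choose 2 = p ^ m) : p ≤ 3 := by
  have h2 := hpp.two_le
  have e1 : 2 * p.choose 2 = p * (p - 1) := by
    rw [Nat.choose_two_right]
    exact Nat.two_mul_div_two_of_even (Nat.even_mul_pred_self p)
  have e2 : p * (p - 1) + p = p * p := by
    obtain ⟨q, hq⟩ : ∃ q, p = q + 1 := ⟨p - 1, by omega⟩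
    rw [hq]
    simp only [Nat.add_sub_cancel]
    ring
  rw [h] at e1
  by_contra hcon
  push Not at hcon
  rcases m with _ | _ | m
  · simp only [pow_zero, mul_one] at e1
    nlinarith
  · simp only [zero_add, pow_one] at e1
    nlinarith
  · have : p ^ 2 ≤ p ^ (m + 1 + 1) := Nat.pow_le_pow_right hpp.pos (by omega)
    nlinarith

theorem component_aux (hm : BaerMin p H V) {ι : Type*} [Fintype ι] [DecidableEq ι] [MulAction H ι]
    (W : ι → AddSubgroup V)
    (hne : ∀ i, W i ≠ ⊥)
    (hind : ∀ f : ι → V, (∀ i, f i ∈ W i) → ∑ i, f i = 0 → ∀ i, f i = 0)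
    (hcomp : ∀ (h : H) (i : ι) (w : V), w ∈ W i → h • w ∈ W (h • i))
    (h2 : 2 ≤ Fintype.card ι) (hp : Fintype.card ι ≤ p) : Group.IsSolvable H := by
  have hpp : p.Prime := Fact.out
  choose w hw hw0 using fun i => (W i).bot_or_exists_ne_zero.resolve_left (hne i)
  have key1 := baer_key1 hm W hind hcomp w hw hw0
  have key2 := baer_key2 hm W hind hcomp w hw hw0
  haveI : Nontrivial ι := Fintype.one_lt_card_iff_nontrivial.mp (by omega)
  obtain ⟨i0, i1, hi01⟩ := exists_pair_ne ι
  haveI : MulAction.IsPretransitive H ι := ⟨fun i j => key2 i j⟩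
  have hcard : Fintype.card ι = p := by
    obtain ⟨m, hm1⟩ := key1 {i0}
    have hst : MulAction.stabilizer H ({i0} : Finset ι) = MulAction.stabilizer H i0 := by
      ext h
      simp only [MulAction.mem_stabilizer_iff, Finset.smul_finset_singleton, Finset.singleton_inj]
    rw [hst, MulAction.index_stabilizer_of_transitive, Nat.card_eq_fintype_card] at hm1
    rw [hm1] at h2 hp ⊢
    rcases m with _ | _ | m
    · simp at h2
    · simp
    · exfalso
      have h3 : p ^ 2 ≤ p ^ (m + 1 + 1) := Nat.pow_le_pow_right hpp.pos (by omega)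
      have := hpp.two_le
      nlinarith
  set σ : H →* Equiv.Perm ι := MulAction.toPermHom H ι with hσ
  have hσa : ∀ (h : H) (i : ι), σ h i = h • i := fun h i => by
    rw [hσ, MulAction.toPermHom_apply, MulAction.toPerm_apply]
  have hker : σ.ker ≠ ⊤ := by
    intro htop
    obtain ⟨h, hh⟩ := key2 i0 i1
    have : h ∈ σ.ker := by rw [htop]; exact Subgroup.mem_top _
    rw [MonoidHom.mem_ker] at this
    have h3 : σ h i0 = i1 := by rw [hσa]; exact hh
    rw [this] at h3
    exact hi01 h3
  haveI hkersol : Group.IsSolvable σ.ker := hm.R1 σ.ker (MonoidHom.normal_ker σ) hker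
  haveI hrangesol : Group.IsSolvable σ.range := by
    haveI : MulAction.IsPretransitive σ.range ι := ⟨fun i j => by
      obtain ⟨h, hh⟩ := key2 i j
      exact ⟨⟨σ h, ⟨h, rfl⟩⟩, by rw [← hh, ← hσa]; rfl⟩⟩
    rcases Cfsg.Agent.S0675.result (by rw [hcard]; exact hpp) σ.range with hs | h2t
    · exact hs
    · have hp3 : p ≤ 3 := by
        rw [MulAction.is_two_pretransitive_iff] at h2t
        obtain ⟨m, hm1⟩ := key1 {i0, i1}
        rw [MulAction.index_stabilizer] at hm1
        have horb : MulAction.orbit H ({i0, i1} : Finset ι) =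
            ↑(Finset.powersetCard 2 (Finset.univ : Finset ι)) := by
          ext J
          rw [Finset.mem_coe, Finset.mem_powersetCard_univ]
          constructor
          · rintro ⟨h, rfl⟩
            show (h • ({i0, i1} : Finset ι)).card = 2
            rw [Finset.card_smul_finset]
            exact Finset.card_pair hi01
          · intro hJ
            obtain ⟨c, d, hcd, rfl⟩ := Finset.card_eq_two.mp hJ
            obtain ⟨g, hg1, hg2⟩ := h2t hi01 hcd
            obtain ⟨h, hh⟩ := g.2
            refine ⟨h, ?_⟩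
            show h • ({i0, i1} : Finset ι) = {c, d}
            have e1 : h • i0 = c := by rw [← hσa, hh]; exact hg1
            have e2 : h • i1 = d := by rw [← hσa, hh]; exact hg2
            rw [Finset.smul_finset_insert, Finset.smul_finset_singleton, e1, e2]
        rw [horb, Set.ncard_coe_finset, Finset.card_powersetCard, Finset.card_univ, hcard] at hm1
        exact baer_choose_arith hpp hm1
      haveI := perm_solvable_small (ι := ι) (by rw [hcard]; exact hp3)
      infer_instance
  exact Group.isSolvable_of_ker_le_range σ.ker.subtype σ.rangeRestrict (by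
    rw [MonoidHom.ker_rangeRestrict, Subgroup.range_subtype])

theorem component_lemma (hm : BaerMin p H V) {ι : Type*} [Fintype ι] (W : ι → AddSubgroup V)
    (hne : ∀ i, W i ≠ ⊥)
    (hind : ∀ f : ι → V, (∀ i, f i ∈ W i) → ∑ i, f i = 0 → ∀ i, f i = 0)
    (hinv : ∀ (h : H) (i : ι) (w : V), w ∈ W i → ∃ j, h • w ∈ W j)
    (h2 : 2 ≤ Fintype.card ι) (hp : Fintype.card ι ≤ p) : Group.IsSolvable H := by
  classical
  letI act : MulAction H ι :=
    { smul := fun h i => baerPerm W hne hind hinv h i
      one_smul := fun i => by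
        obtain ⟨w0, hw0, hw0ne⟩ := (W i).bot_or_exists_ne_zero.resolve_left (hne i)
        exact baerPerm_char W hne hind hinv 1 i i w0 hw0 hw0ne (by rwa [one_smul])
      mul_smul := fun g h i => by
        obtain ⟨w0, hw0, hw0ne⟩ := (W i).bot_or_exists_ne_zero.resolve_left (hne i)
        refine baerPerm_char W hne hind hinv (g * h) i _ w0 hw0 hw0ne ?_
        rw [mul_smul]
        exact baerPerm_spec W hne hind hinv g _ _ (baerPerm_spec W hne hind hinv h i w0 hw0) }
  exact component_aux hm W hne hind (fun h i w hw => baerPerm_spec W hne hind hinv h i w hw) h2 hp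

end

end Cfsg.Agent.Lib.Helper42
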