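import Cfsg.Agent.Lib.Helper61.F15Defs
import Cfsg.Agent.Lib.Helper77.F15P10

set_option autoImplicit false

namespace Cfsg.Agent.Lib.Helper42.F15

open Cfsg Cfsg.Agent.Lib.Helper11 Cfsg.Agent.Lib.Helper61.F15

variable {G : Type*} [Group G] {D : Set G}

/-- a set on which a `p`-subgroup acts transitively by conjugation has `p`-power cardinality -/
theorem ncard_pow_of_conj_trans [Finite G] {p : ℕ} [Fact p.Prime] {Q : Subgroup G}
    (hQ : IsPGroup p Q) {S : Set G} (hS : ∀ t ∈ Q, ∀ r ∈ S, t * r * t⁻¹ ∈ S)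
    (htrans : ∀ r ∈ S, ∀ s ∈ S, ∃ t ∈ Q, t * r * t⁻¹ = s) (hne : S.Nonempty) :
    ∃ j : ℕ, S.ncard = p ^ j := by
  let act : MulAction ↥Q ↥S :=
    { smul := fun t r => ⟨(t : G) * r.1 * (t : G)⁻¹, hS t t.2 r.1 r.2⟩
      one_smul := fun r => Subtype.ext (by
        show ((1 : ↥Q) : G) * r.1 * ((1 : ↥Q) : G)⁻¹ = r.1
        rw [Subgroup.coe_one]; group)
      mul_smul := fun t t' r => Subtype.ext (by
        show ((t * t' : ↥Q) : G) * r.1 * ((t * t' : ↥Q) : G)⁻¹ =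
          (t : G) * ((t' : G) * r.1 * (t' : G)⁻¹) * (t : G)⁻¹
        rw [Subgroup.coe_mul]; group) }
  have hpre : MulAction.IsPretransitive ↥Q ↥S := by
    constructor
    intro r s
    obtain ⟨t, ht, e⟩ := htrans r.1 r.2 s.1 s.2
    exact ⟨⟨t, ht⟩, Subtype.ext e⟩
  obtain ⟨r₀, hr₀⟩ := hne
  have h1 := MulAction.index_stabilizer_of_transitive ↥Q (⟨r₀, hr₀⟩ : ↥S)
  obtain ⟨j, hj⟩ := hQ.index (MulAction.stabilizer ↥Q (⟨r₀, hr₀⟩ : ↥S))
  refine ⟨j, ?_⟩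
  rw [← Nat.card_coe_set_eq, ← h1, hj]

/-- S1615 piece P15: the number of neighbours of `a` is a power of `3` -/
theorem card_pow3 [Finite G] (hD : IsThreeTranspositionClass D) (hcoc : Coc D) {a : G}
    (ha : a ∈ D) (hne : (Dn D a).Nonempty) : ∃ j : ℕ, (Dn D a).ncard = 3 ^ j := by
  have : Fact (Nat.Prime 3) := ⟨Nat.prime_three⟩
  exact ncard_pow_of_conj_trans (Cfsg.Agent.Lib.Helper77.F15.Qa_pgroup hD hcoc ha)
    (fun t ht r hr => Cfsg.Agent.Lib.Helper77.F15.Qa_conj_Dn hD ht hr)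
    (fun r hr s hs => Cfsg.Agent.Lib.Helper77.F15.Qa_trans hD hcoc ha hr hs) hne

end Cfsg.Agent.Lib.Helper42.F15
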