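import Mathlib
import Cfsg.Agent.Lib.Helper4.FCDefs

/-!
Project FC (helper4, for S4146), piece L1: coprime class sizes give
`|G : C(x) ∩ C(y)| = cs x * cs y`.
-/

set_option autoImplicit false

namespace Cfsg.Agent.Lib.Helper4.FC

universe u

/-- PIECE L1 -/
theorem fc_l1 : L1Stmt.{u} := by
  intro G _ _ x y hcop
  have h1 : (Cen x).index ∣ (Cen x ⊓ Cen y).index := Subgroup.index_dvd_of_le inf_le_left
  have h2 : (Cen y).index ∣ (Cen x ⊓ Cen y).index := Subgroup.index_dvd_of_le inf_le_right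
  have h3 : (Cen x).index * (Cen y).index ∣ (Cen x ⊓ Cen y).index :=
    Nat.Coprime.mul_dvd_of_dvd_of_dvd hcop h1 h2
  have h4 : (Cen x ⊓ Cen y).index ≤ (Cen x).index * (Cen y).index := Subgroup.index_inf_le
  have h5 : (Cen x ⊓ Cen y).index ≠ 0 := Subgroup.index_ne_zero_of_finite
  exact le_antisymm h4 (Nat.le_of_dvd (Nat.pos_of_ne_zero h5) h3)

end Cfsg.Agent.Lib.Helper4.FC
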