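import Mathlib
import Cfsg.Agent.Lib.Helper62.MargDefs

/-!
# S3620, piece MG-B: Bochert descent (commutators with small support)
-/

set_option autoImplicit false

namespace Cfsg.Agent.Lib.Helper62.Marg

open MulAction
open scoped Pointwise

variable {G : Type*} {Ω : Type*} [Group G] [MulAction G Ω]

theorem mgB_supp_smul (u : G) {y : Ω} (hy : u • y ≠ y) : u • (u • y) ≠ u • y :=
  fun h => hy (MulAction.injective u h)

theorem mgB_supp_inv_smul (u : G) {y : Ω} (hy : u • y ≠ y) : u • (u⁻¹ • y) ≠ u⁻¹ • y := by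
  rw [smul_inv_smul]
  intro h
  apply hy
  conv_lhs => rw [h]
  rw [smul_inv_smul]

theorem act3_of_supp_le [Finite Ω] {t : ℕ} (hsmall : ∀ X : Set Ω, X.ncard + 1 ≤ t → Flat G X)
    (u : G) (hu : ∃ x : Ω, u • x ≠ x) (h1 : {x : Ω | u • x ≠ x}.ncard ≤ t)
    (h2 : {x : Ω | u • x ≠ x}.ncard < Nat.card Ω) : ∃ c : G, Act3 (Ω := Ω) c := by
  obtain ⟨α, hα⟩ := hu
  set S : Set Ω := {x : Ω | u • x ≠ x} with hS
  have hαS : α ∈ S := hα
  obtain ⟨ω, hω⟩ : ∃ ω, ω ∉ S := by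
    by_contra hcon
    push Not at hcon
    have : S = Set.univ := Set.eq_univ_of_forall hcon
    rw [this, Set.ncard_univ] at h2
    exact lt_irrefl _ h2
  have hfixu : ∀ q, q ∉ S → u • q = q := fun q hq => by
    by_contra h; exact hq h
  have hωu : u • ω = ω := hfixu ω hω
  have hX : (S \ {α}).ncard + 1 ≤ t := by
    rw [Set.ncard_sdiff_singleton_add_one hαS (Set.toFinite S)]; exact h1
  obtain ⟨x, hxfix, hxα⟩ := hsmall _ hX α (fun h => h.2 rfl) ω (fun h => hω h.1)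
  have hxinv : ∀ p ∈ S \ {α}, x⁻¹ • p = p := fun p hp => by
    rw [inv_smul_eq_iff, hxfix p hp]
  have hαω : α ≠ ω := fun h => hω (h ▸ hαS)
  -- points outside `S \ {α}` other than `ω` are moved outside `S` by `x⁻¹`
  have hout : ∀ p, p ∉ S \ {α} → p ≠ ω → x⁻¹ • p ∉ S := by
    intro p hp hpω hq
    by_cases hqα : x⁻¹ • p = α
    · apply hpω
      rw [← hxα, ← hqα, smul_inv_smul]
    · have h3 : x⁻¹ • p ∈ S \ {α} := ⟨hq, hqα⟩
      have h4 := hxfix _ h3
      rw [smul_inv_smul] at h4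
      exact hp (h4 ▸ h3)
  set α' : Ω := u⁻¹ • α with hα'
  have huα' : u • α' = α := smul_inv_smul u α
  have hα'S : α' ∈ S := mgB_supp_inv_smul u hα
  have hα'α : α' ≠ α := by
    intro h
    apply hα
    conv_lhs => rw [← h]
    rw [huα']
  have hα'X : α' ∈ S \ {α} := ⟨hα'S, hα'α⟩
  have huαX : u • α ∈ S \ {α} := ⟨mgB_supp_smul u hα, hα⟩
  refine ⟨u⁻¹ * x * u * x⁻¹, α', ω, α, fun h => hω (h ▸ hα'S), fun h => hαω h.symm, hα'α,
    ?_, ?_, ?_, ?_⟩
  · rw [mul_smul, mul_smul, mul_smul, hxinv α' hα'X, huα', hxα, inv_smul_eq_iff, hωu]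
  · have h3 : x⁻¹ • ω = α := by rw [inv_smul_eq_iff, hxα]
    rw [mul_smul, mul_smul, mul_smul, h3, hxfix _ huαX, inv_smul_smul]
  · have h3 : x⁻¹ • α ∉ S := hout α (fun h => h.2 rfl) hαω
    rw [mul_smul, mul_smul, mul_smul, hfixu _ h3, smul_inv_smul]
  · intro p hpα' hpω hpα
    by_cases hpS : p ∈ S
    · have hpX : p ∈ S \ {α} := ⟨hpS, hpα⟩
      have hupX : u • p ∈ S \ {α} := by
        refine ⟨mgB_supp_smul u hpS, fun h => hpα' ?_⟩
        rw [hα', ← (show u • p = α from h), inv_smul_smul]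
      rw [mul_smul, mul_smul, mul_smul, hxinv p hpX, hxfix _ hupX, inv_smul_smul]
    · have h3 : x⁻¹ • p ∉ S := hout p (fun h => hpS h.1) hpω
      rw [mul_smul, mul_smul, mul_smul, hfixu _ h3, smul_inv_smul, inv_smul_eq_iff,
        hfixu p hpS]

end Cfsg.Agent.Lib.Helper62.Marg
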