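import Mathlib
import Cfsg.Agent.Lib.Helper62.MargDefs
import Cfsg.Agent.Lib.Helper42.MargB

/-!
# S3620, piece MG-B (second lemma): Bochert descent step
-/

set_option autoImplicit false

namespace Cfsg.Agent.Lib.Helper62.Marg

open MulAction
open scoped Pointwise

variable {G : Type*} {Ω : Type*} [Group G] [MulAction G Ω]

/-- Subsets of the support with at most one "exit". -/
theorem mgB_exists_chain [Finite Ω] (u : G) (k : ℕ) (hk : k ≤ {x : Ω | u • x ≠ x}.ncard) :
    ∃ R : Set Ω, R ⊆ {x : Ω | u • x ≠ x} ∧ R.ncard = k ∧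
      ∀ p ∈ R, ∀ q ∈ R, u • p ∉ R → u • q ∉ R → p = q := by
  induction k with
  | zero =>
    exact ⟨∅, Set.empty_subset _, Set.ncard_empty _, fun p hp => absurd hp (Set.notMem_empty p)⟩
  | succ k ih =>
    obtain ⟨R, hRS, hRk, hR⟩ := ih (by omega)
    by_cases hex : ∃ e ∈ R, u • e ∉ R
    · obtain ⟨e, heR, hue⟩ := hex
      refine ⟨insert (u • e) R, ?_, ?_, ?_⟩
      · exact Set.insert_subset (mgB_supp_smul u (hRS heR)) hRS
      · rw [Set.ncard_insert_of_notMem hue (Set.toFinite R), hRk]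
      · have key : ∀ p ∈ insert (u • e) R, u • p ∉ insert (u • e) R → p = u • e := by
          intro p hp hup
          rcases hp with rfl | hp
          · rfl
          · exfalso
            have h1 : u • p ∉ R := fun h => hup (Set.mem_insert_of_mem _ h)
            have h2 := hR p hp e heR h1 hue
            rw [h2] at hup
            exact hup (Set.mem_insert _ _)
        intro p hp q hq hup huq
        rw [key p hp hup, key q hq huq]
    · push Not at hex
      obtain ⟨p, hpS, hpR⟩ : ∃ p ∈ {x : Ω | u • x ≠ x}, p ∉ R := by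
        apply Set.exists_mem_notMem_of_ncard_lt_ncard
        · rw [hRk]; omega
        · exact Set.toFinite R
      refine ⟨insert p R, Set.insert_subset hpS hRS, ?_, ?_⟩
      · rw [Set.ncard_insert_of_notMem hpR (Set.toFinite R), hRk]
      · have key : ∀ q ∈ insert p R, u • q ∉ insert p R → q = p := by
          intro q hq huq
          rcases hq with rfl | hq
          · rfl
          · exact absurd (Set.mem_insert_of_mem _ (hex q hq)) huq
        intro a ha b hb hua hub
        rw [key a ha hua, key b hb hub]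

theorem descent_step [Finite Ω] {t : ℕ} (hsmall : ∀ X : Set Ω, X.ncard + 1 ≤ t → Flat G X)
    (u : G) (h1 : t + 1 ≤ {x : Ω | u • x ≠ x}.ncard)
    (h2 : {x : Ω | u • x ≠ x}.ncard + 4 ≤ 2 * t)
    (h3 : {x : Ω | u • x ≠ x}.ncard < Nat.card Ω) :
    ∃ c : G, (∃ x : Ω, c • x ≠ x) ∧
      {x : Ω | c • x ≠ x}.ncard < {x : Ω | u • x ≠ x}.ncard := by
  obtain ⟨R, hRS, hRk, hR⟩ := mgB_exists_chain u (t - 1)
    (le_trans (by omega : t - 1 ≤ t + 1) h1)
  set S : Set Ω := {x : Ω | u • x ≠ x} with hS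
  have hfixu : ∀ q, q ∉ S → u • q = q := fun q hq => by
    by_contra h; exact hq h
  obtain ⟨ω, hω⟩ : ∃ ω, ω ∉ S := by
    by_contra hcon
    push Not at hcon
    have : S = Set.univ := Set.eq_univ_of_forall hcon
    rw [this, Set.ncard_univ] at h3
    exact lt_irrefl _ h3
  obtain ⟨β, hβS, hβR⟩ : ∃ β ∈ S, β ∉ R := by
    apply Set.exists_mem_notMem_of_ncard_lt_ncard
    · rw [hRk]; omega
    · exact Set.toFinite R
  have hflat : Flat G R := hsmall R (by rw [hRk]; omega)
  obtain ⟨x, hxfix, hxβ⟩ := hflat β hβR ω (fun h => hω (hRS h))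
  have hxinv : ∀ p ∈ R, x⁻¹ • p = p := fun p hp => by rw [inv_smul_eq_iff, hxfix p hp]
  refine ⟨u⁻¹ * x * u * x⁻¹, ⟨ω, ?_⟩, ?_⟩
  · intro h
    have h4 : x⁻¹ • ω = β := by rw [inv_smul_eq_iff, hxβ]
    rw [mul_smul, mul_smul, mul_smul, h4, inv_smul_eq_iff, hfixu ω hω, ← hxβ] at h
    exact hβS (MulAction.injective x h)
  · set E : Set Ω := {p | p ∈ R ∧ u • p ∉ R} with hE
    have hEsub : E.Subsingleton := fun p hp q hq => hR p hp.1 q hq.1 hp.2 hq.2
    have hEc : E.ncard ≤ 1 := Set.ncard_le_one_iff_subsingleton.mpr hEsub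
    have hsupp : {y : Ω | (u⁻¹ * x * u * x⁻¹) • y ≠ y} ⊆
        (S \ R) ∪ (fun y => x • y) '' (S \ R) ∪ E := by
      intro p hp
      by_contra hcon
      simp only [Set.mem_union, not_or] at hcon
      obtain ⟨⟨hp1, hp2⟩, hp3⟩ := hcon
      apply hp
      by_cases hpR : p ∈ R
      · have hupR : u • p ∈ R := by
          by_contra h; exact hp3 ⟨hpR, h⟩
        rw [mul_smul, mul_smul, mul_smul, hxinv p hpR, hxfix _ hupR, inv_smul_smul]
      · have hpS : p ∉ S := fun h => hp1 ⟨h, hpR⟩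
        have hq1 : x⁻¹ • p ∉ S \ R := fun h => hp2 ⟨x⁻¹ • p, h, smul_inv_smul x p⟩
        have hq2 : x⁻¹ • p ∉ R := by
          intro h
          have := hxfix _ h
          rw [smul_inv_smul] at this
          exact hpR (this ▸ h)
        have hq3 : x⁻¹ • p ∉ S := fun h => hq1 ⟨h, hq2⟩
        rw [mul_smul, mul_smul, mul_smul, hfixu _ hq3, smul_inv_smul, inv_smul_eq_iff,
          hfixu p hpS]
    have hdiff : (S \ R).ncard = S.ncard - (t - 1) := by
      rw [Set.ncard_sdiff hRS (Set.toFinite R), hRk]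
    calc {y : Ω | (u⁻¹ * x * u * x⁻¹) • y ≠ y}.ncard
        ≤ ((S \ R) ∪ (fun y => x • y) '' (S \ R) ∪ E).ncard :=
          Set.ncard_le_ncard hsupp (Set.toFinite _)
      _ ≤ ((S \ R) ∪ (fun y => x • y) '' (S \ R)).ncard + E.ncard := Set.ncard_union_le _ _
      _ ≤ (S \ R).ncard + ((fun y => x • y) '' (S \ R)).ncard + E.ncard := by
          have := Set.ncard_union_le (S \ R) ((fun y => x • y) '' (S \ R)); omega
      _ ≤ (S \ R).ncard + (S \ R).ncard + 1 := by
          have := Set.ncard_image_le (f := fun y => x • y) (s := S \ R) (Set.toFinite _); omega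
      _ < S.ncard := by rw [hdiff]; omega

end Cfsg.Agent.Lib.Helper62.Marg
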