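import Mathlib
import Cfsg.Agent.Lib.Helper72.Frattini
import Cfsg.Agent.Lib.Helper30.FratAut

/-!
# S5287, piece J11: the normal `p`-subgroup `K` of a group of automorphisms stabilising a
maximal subgroup of a 2-generated `p`-group.
-/

set_option autoImplicit false
set_option linter.style.haveILetI false

namespace Cfsg.Agent.Lib.Helper42

section SecPow

variable {S : Type*} [Group S]

/-- On a "cyclic section" `M / N` generated by `x₀`, an automorphism preserving `M` and `N`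
acts as a power map. -/
theorem secpow_exists (M N : Subgroup S) [N.Normal] (x₀ : S)
    (hgen : ∀ x ∈ M, ∃ k : ℤ, (x₀ ^ k)⁻¹ * x ∈ N)
    (α : MulAut S) (hαM : α x₀ ∈ M) (hαN : ∀ x ∈ N, α x ∈ N) :
    ∃ i : ℤ, ∀ x ∈ M, ((x ^ i : S) : S ⧸ N) = ((α x : S) : S ⧸ N) := by
  obtain ⟨i, hi⟩ := hgen (α x₀) hαM
  refine ⟨i, fun x hx => ?_⟩
  obtain ⟨k, hk⟩ := hgen x hx
  have hi' : ((x₀ ^ i : S) : S ⧸ N) = ((α x₀ : S) : S ⧸ N) := QuotientGroup.eq.mpr hi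
  have hk' : ((x₀ ^ k : S) : S ⧸ N) = ((x : S) : S ⧸ N) := QuotientGroup.eq.mpr hk
  have h1 : α x = (α x₀) ^ k * α ((x₀ ^ k)⁻¹ * x) := by
    rw [← map_zpow, ← map_mul]
    congr 1
    group
  have h2 : ((α ((x₀ ^ k)⁻¹ * x) : S) : S ⧸ N) = 1 :=
    (QuotientGroup.eq_one_iff _).mpr (hαN _ hk)
  calc ((x ^ i : S) : S ⧸ N) = ((x : S) : S ⧸ N) ^ i := QuotientGroup.mk_zpow _ _ _
    _ = (((x₀ : S) : S ⧸ N) ^ k) ^ i := by rw [← hk', QuotientGroup.mk_zpow]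
    _ = (((x₀ : S) : S ⧸ N) ^ i) ^ k := by rw [← zpow_mul, ← zpow_mul, mul_comm]
    _ = ((α x₀ : S) : S ⧸ N) ^ k := by rw [← hi', QuotientGroup.mk_zpow]
    _ = ((α x : S) : S ⧸ N) := by
      rw [h1, QuotientGroup.mk_mul, h2, mul_one, QuotientGroup.mk_zpow]

theorem secpow_comm (M N : Subgroup S) [N.Normal] (x₀ : S)
    (hgen : ∀ x ∈ M, ∃ k : ℤ, (x₀ ^ k)⁻¹ * x ∈ N) (hx₀ : x₀ ∈ M)
    (α β : MulAut S) (hαM : ∀ x ∈ M, α x ∈ M) (hαN : ∀ x ∈ N, α x ∈ N)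
    (hβM : ∀ x ∈ M, β x ∈ M) (hβN : ∀ x ∈ N, β x ∈ N) (x : S) (hx : x ∈ M) :
    ((α (β x) : S) : S ⧸ N) = ((β (α x) : S) : S ⧸ N) := by
  obtain ⟨i, hi⟩ := secpow_exists M N x₀ hgen α (hαM _ hx₀) hαN
  obtain ⟨j, hj⟩ := secpow_exists M N x₀ hgen β (hβM _ hx₀) hβN
  calc ((α (β x) : S) : S ⧸ N) = ((β x : S) : S ⧸ N) ^ i := by
        rw [← hi _ (hβM _ hx), QuotientGroup.mk_zpow]
    _ = (((x : S) : S ⧸ N) ^ j) ^ i := by rw [← hj _ hx, QuotientGroup.mk_zpow]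
    _ = (((x : S) : S ⧸ N) ^ i) ^ j := by rw [← zpow_mul, ← zpow_mul, mul_comm]
    _ = ((α x : S) : S ⧸ N) ^ j := by rw [← hi _ hx, QuotientGroup.mk_zpow]
    _ = ((β (α x) : S) : S ⧸ N) := by rw [← hj _ (hαM _ hx), QuotientGroup.mk_zpow]

theorem secpow_commutator (M N : Subgroup S) [N.Normal] (x₀ : S)
    (hgen : ∀ x ∈ M, ∃ k : ℤ, (x₀ ^ k)⁻¹ * x ∈ N) (hx₀ : x₀ ∈ M)
    (A : Subgroup (MulAut S)) (hAM : ∀ α ∈ A, ∀ x ∈ M, α x ∈ M)
    (hAN : ∀ α ∈ A, ∀ x ∈ N, α x ∈ N) (α β : MulAut S) (hα : α ∈ A) (hβ : β ∈ A)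
    (x : S) (hx : x ∈ M) : x⁻¹ * (α * β * α⁻¹ * β⁻¹) x ∈ N := by
  have hy : α⁻¹ (β⁻¹ x) ∈ M := hAM _ (A.inv_mem hα) _ (hAM _ (A.inv_mem hβ) _ hx)
  have h := secpow_comm M N x₀ hgen hx₀ β α (hAM β hβ) (hAN β hβ) (hAM α hα) (hAN α hα) _ hy
  rw [MulAut.apply_inv_self, MulAut.apply_inv_self] at h
  rw [← QuotientGroup.eq]
  rw [h]
  rfl

theorem secpow_pow (M N : Subgroup S) [N.Normal] (x₀ : S)
    (hgen : ∀ x ∈ M, ∃ k : ℤ, (x₀ ^ k)⁻¹ * x ∈ N) (hx₀ : x₀ ∈ M) {p : ℕ} (hp : p.Prime)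
    (hpow : ∀ x ∈ M, x ^ p ∈ N)
    (A : Subgroup (MulAut S)) (hAM : ∀ α ∈ A, ∀ x ∈ M, α x ∈ M)
    (hAN : ∀ α ∈ A, ∀ x ∈ N, α x ∈ N) (α : MulAut S) (hα : α ∈ A)
    (x : S) (hx : x ∈ M) : x⁻¹ * (α ^ (p - 1)) x ∈ N := by
  obtain ⟨i, hi⟩ := secpow_exists M N x₀ hgen α (hAM α hα _ hx₀) (hAN α hα)
  have hpowM : ∀ n : ℕ, ∀ y ∈ M, (α ^ n) y ∈ M := by
    intro n y hy
    exact hAM _ (A.pow_mem hα n) y hy
  have hind : ∀ n : ℕ, ∀ y ∈ M, ((y ^ (i ^ n) : S) : S ⧸ N) = (((α ^ n) y : S) : S ⧸ N) := by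
    intro n
    induction n with
    | zero => intro y _; simp
    | succ n ih =>
      intro y hy
      have e : (α ^ (n + 1)) y = α ((α ^ n) y) := by rw [pow_succ', MulAut.mul_apply]
      calc ((y ^ (i ^ (n + 1)) : S) : S ⧸ N) = ((y : S) : S ⧸ N) ^ (i ^ (n + 1)) :=
            QuotientGroup.mk_zpow _ _ _
        _ = (((y : S) : S ⧸ N) ^ (i ^ n)) ^ i := by rw [← zpow_mul, pow_succ]
        _ = ((((α ^ n) y : S) : S ⧸ N)) ^ i := by rw [← ih y hy, QuotientGroup.mk_zpow]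
        _ = (((α ^ (n + 1)) y : S) : S ⧸ N) := by
          rw [e, ← hi _ (hpowM n y hy), QuotientGroup.mk_zpow]
  have hpq : ∀ y ∈ M, (((y : S) : S ⧸ N)) ^ p = 1 := by
    intro y hy
    rw [← QuotientGroup.mk_pow]
    exact (QuotientGroup.eq_one_iff _).mpr (hpow y hy)
  rw [← QuotientGroup.eq, ← hind (p - 1) x hx, QuotientGroup.mk_zpow]
  by_cases hcop : IsCoprime i (p : ℤ)
  · have h1 := (Int.ModEq.pow_card_sub_one_eq_one hp hcop).dvd
    obtain ⟨t, ht⟩ := h1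
    have h2 : i ^ (p - 1) = 1 - p * t := by linarith
    rw [h2, zpow_sub, zpow_one, zpow_mul, zpow_natCast, hpq x hx, one_zpow, inv_one, mul_one]
  · have hdvd : (p : ℤ) ∣ i := by
      by_contra hnd
      exact hcop ((Prime.coprime_iff_not_dvd (Nat.prime_iff_prime_int.mp hp)).mpr hnd).symm
    obtain ⟨t, ht⟩ := hdvd
    have hMN : ∀ y ∈ M, y ∈ N := by
      intro y hy
      have h1 := hi y hy
      rw [ht, QuotientGroup.mk_zpow, zpow_mul, zpow_natCast, hpq y hy, one_zpow] at h1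
      have h2 : α y ∈ N := (QuotientGroup.eq_one_iff _).mp h1.symm
      have h3 := hAN _ (A.inv_mem hα) _ h2
      rwa [MulAut.inv_apply_self] at h3
    have h1 : ((x : S) : S ⧸ N) = 1 := (QuotientGroup.eq_one_iff _).mpr (hMN x hx)
    rw [h1, one_zpow]

end SecPow

section Gens

variable {S : Type*} [Group S]

theorem isCoatom_of_index_prime' {p : ℕ} (hp : p.Prime) (L : Subgroup S) (hL : L.index = p) :
    IsCoatom L := by
  refine ⟨fun h => ?_, fun M hM => ?_⟩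
  · rw [h, Subgroup.index_top] at hL
    exact hp.one_lt.ne hL
  · have h1 := Subgroup.relIndex_mul_index hM.le
    rw [hL] at h1
    rcases (Nat.dvd_prime hp).mp ⟨_, (mul_comm _ _).trans h1 |>.symm⟩ with h2 | h2
    · exact Subgroup.index_eq_one.mp h2
    · exfalso
      rw [h2] at h1
      have h3 : L.relIndex M = 1 := by
        have := hp.pos
        nlinarith
      exact (not_le_of_gt hM) (Subgroup.relIndex_eq_one.mp h3)

theorem gen_top_of_index_prime {p : ℕ} [Fact p.Prime] (L : Subgroup S) [L.Normal]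
    (hL : L.index = p) (a : S) (ha : a ∉ L) (x : S) : ∃ k : ℤ, (a ^ k)⁻¹ * x ∈ L := by
  have hcard : Nat.card (S ⧸ L) = p := by rw [← Subgroup.index_eq_card]; exact hL
  have hne : ((a : S) : S ⧸ L) ≠ 1 := fun h => ha ((QuotientGroup.eq_one_iff _).mp h)
  have := mem_zpowers_of_prime_card hcard hne (g' := ((x : S) : S ⧸ L))
  obtain ⟨k, hk⟩ := Subgroup.mem_zpowers_iff.mp this
  refine ⟨k, ?_⟩
  rw [← QuotientGroup.eq, QuotientGroup.mk_zpow]
  exact hk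

theorem gen_sub_of_two_gen {p : ℕ} [Fact p.Prime] (L N : Subgroup S) [L.Normal] [N.Normal]
    (hL : L.index = p) (hNL : N ≤ L) (hcomm : ∀ x y : S, x * y * x⁻¹ * y⁻¹ ∈ N)
    (hpow : ∀ x : S, x ^ p ∈ N) (a b : S) (hab : Subgroup.closure {a, b} = ⊤) (ha : a ∉ L) :
    ∃ x₁ ∈ L, ∀ x ∈ L, ∃ k : ℤ, (x₁ ^ k)⁻¹ * x ∈ N := by
  have hp : p.Prime := Fact.out
  obtain ⟨m, hm⟩ := gen_top_of_index_prime L hL a ha b
  refine ⟨(a ^ m)⁻¹ * b, hm, fun x hx => ?_⟩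
  have hQc : ∀ u v : S ⧸ N, u * v = v * u := by
    intro u v
    obtain ⟨y, rfl⟩ := QuotientGroup.mk_surjective u
    obtain ⟨z, rfl⟩ := QuotientGroup.mk_surjective v
    rw [← QuotientGroup.mk_mul, ← QuotientGroup.mk_mul, QuotientGroup.eq]
    have := hcomm z⁻¹ y⁻¹
    convert this using 1
    group
  letI : CommGroup (S ⧸ N) := { (inferInstance : Group (S ⧸ N)) with mul_comm := hQc }
  have hdec : ∀ y : S, ∃ i j : ℤ,
      ((y : S) : S ⧸ N) = ((a : S) : S ⧸ N) ^ i * ((b : S) : S ⧸ N) ^ j := by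
    intro y
    have hy : y ∈ Subgroup.closure {a, b} := by rw [hab]; trivial
    induction hy using Subgroup.closure_induction with
    | mem z hz =>
      rcases hz with rfl | rfl
      · exact ⟨1, 0, by simp⟩
      · exact ⟨0, 1, by simp⟩
    | one => exact ⟨0, 0, by simp⟩
    | mul z w _ _ ihz ihw =>
      obtain ⟨i, j, h1⟩ := ihz
      obtain ⟨i', j', h2⟩ := ihw
      refine ⟨i + i', j + j', ?_⟩
      rw [QuotientGroup.mk_mul, h1, h2, zpow_add, zpow_add]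
      exact mul_mul_mul_comm _ _ _ _
    | inv z _ ih =>
      obtain ⟨i, j, h1⟩ := ih
      refine ⟨-i, -j, ?_⟩
      rw [QuotientGroup.mk_inv, h1, mul_inv, zpow_neg, zpow_neg]
  obtain ⟨i, j, hij⟩ := hdec x
  set x₁ : S := (a ^ m)⁻¹ * b with hx₁
  have hb : ((b : S) : S ⧸ N) = ((a : S) : S ⧸ N) ^ m * ((x₁ : S) : S ⧸ N) := by
    rw [← QuotientGroup.mk_zpow, ← QuotientGroup.mk_mul, hx₁]
    congr 1
    group
  have h1 : ((x : S) : S ⧸ N) = ((a : S) : S ⧸ N) ^ (i + m * j) * ((x₁ : S) : S ⧸ N) ^ j := by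
    rw [hij, hb, mul_zpow, zpow_add, ← zpow_mul, mul_assoc]
  -- `a ^ (i + m * j) ∈ L`
  have h2 : a ^ (i + m * j) ∈ L := by
    have h3 : ((a ^ (i + m * j) : S) : S ⧸ N) = ((x * (x₁ ^ j)⁻¹ : S) : S ⧸ N) := by
      rw [QuotientGroup.mk_mul, QuotientGroup.mk_inv, QuotientGroup.mk_zpow, QuotientGroup.mk_zpow,
        h1, mul_inv_cancel_right]
    have h4 := hNL (QuotientGroup.eq.mp h3.symm)
    have h5 : x * (x₁ ^ j)⁻¹ ∈ L := L.mul_mem hx (L.inv_mem (L.zpow_mem hm j))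
    have h6 := L.mul_mem h5 h4
    rwa [mul_inv_cancel_left] at h6
  have hne : ((a : S) : S ⧸ L) ≠ 1 := fun h => ha ((QuotientGroup.eq_one_iff _).mp h)
  have hpL : ((a : S) : S ⧸ L) ^ p = 1 := by
    rw [← QuotientGroup.mk_pow]
    exact (QuotientGroup.eq_one_iff _).mpr (hNL (hpow a))
  have hord : orderOf ((a : S) : S ⧸ L) = p := orderOf_eq_prime hpL hne
  have h7 : ((a : S) : S ⧸ L) ^ (i + m * j) = 1 := by
    rw [← QuotientGroup.mk_zpow]
    exact (QuotientGroup.eq_one_iff _).mpr h2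
  have h8 : (p : ℤ) ∣ i + m * j := by
    rw [← hord]
    exact orderOf_dvd_iff_zpow_eq_one.mpr h7
  obtain ⟨t, ht⟩ := h8
  have h9 : ((a : S) : S ⧸ N) ^ (i + m * j) = 1 := by
    rw [ht, zpow_mul, zpow_natCast, ← QuotientGroup.mk_pow,
      (QuotientGroup.eq_one_iff _).mpr (hpow a), one_zpow]
  refine ⟨j, ?_⟩
  rw [← QuotientGroup.eq, QuotientGroup.mk_zpow, h1, h9, one_mul]

end Gens

/-- **S5287, piece J11.** -/
theorem exists_K_of_invariant_max {S : Type*} [Group S] [Finite S] {p : ℕ} [Fact p.Prime]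
    (hS : IsPGroup p S) (hgen : ∃ a b : S, Subgroup.closure {a, b} = ⊤)
    (A : Subgroup (MulAut S)) (L : Subgroup S) (hL : L.index = p)
    (hLA : ∀ α ∈ A, ∀ x ∈ L, α x ∈ L) :
    ∃ K : Subgroup (MulAut S), K ≤ A ∧ (∀ α ∈ A, ∀ κ ∈ K, α * κ * α⁻¹ ∈ K) ∧ IsPGroup p K ∧
      (∀ α ∈ A, ∀ β ∈ A, α * β * α⁻¹ * β⁻¹ ∈ K) ∧ ∀ α ∈ A, α ^ (p - 1) ∈ K := by
  have hp : p.Prime := Fact.out
  have hLco : IsCoatom L := isCoatom_of_index_prime' hp L hL
  have hΦL : frattini S ≤ L := frattini_le_coatom hLco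
  have hcommΦ := Cfsg.Agent.Lib.Helper72.comm_mem_frattini hS
  have hpowΦ := Cfsg.Agent.Lib.Helper72.pow_mem_frattini hS
  haveI hΦn : (frattini S).Normal := inferInstance
  haveI hLn : L.Normal := ⟨fun n hn g => by
    have h1 := hΦL (hcommΦ g n)
    have h2 := L.mul_mem h1 hn
    have e : g * n * g⁻¹ * n⁻¹ * n = g * n * g⁻¹ := by group
    rwa [e] at h2⟩
  have hΦA : ∀ α ∈ A, ∀ x ∈ frattini S, α x ∈ frattini S := fun α _ x hx =>
    (Cfsg.Agent.Lib.Helper30.frattini_mem_of_equiv α).mpr hx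
  obtain ⟨a, b, hab⟩ := hgen
  -- generator of `S` mod `L`
  obtain ⟨x₀, hx₀⟩ : ∃ x₀ : S, x₀ ∉ L := by
    by_contra hcon
    push Not at hcon
    exact hLco.1 (eq_top_iff.mpr fun x _ => hcon x)
  have hgen0 : ∀ x ∈ (⊤ : Subgroup S), ∃ k : ℤ, (x₀ ^ k)⁻¹ * x ∈ L := fun x _ =>
    gen_top_of_index_prime L hL x₀ hx₀ x
  -- generator of `L` mod `Φ`
  obtain ⟨x₁, hx₁L, hgen1⟩ : ∃ x₁ ∈ L, ∀ x ∈ L, ∃ k : ℤ, (x₁ ^ k)⁻¹ * x ∈ frattini S := by
    by_cases ha : a ∈ L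
    · have hb : b ∉ L := by
        intro hb
        apply hLco.1
        rw [eq_top_iff, ← hab, Subgroup.closure_le]
        rintro z (rfl | rfl)
        · exact ha
        · exact hb
      exact gen_sub_of_two_gen L (frattini S) hL hΦL hcommΦ hpowΦ b a
        (by rw [Set.pair_comm]; exact hab) hb
    · exact gen_sub_of_two_gen L (frattini S) hL hΦL hcommΦ hpowΦ a b hab ha
  let K : Subgroup (MulAut S) :=
    { carrier := {α | α ∈ A ∧ (∀ x, x⁻¹ * α x ∈ L) ∧ ∀ x ∈ L, x⁻¹ * α x ∈ frattini S}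
      one_mem' := ⟨A.one_mem, fun x => by simp, fun x _ => by simp⟩
      mul_mem' := by
        rintro α β ⟨hα, hα1, hα2⟩ ⟨hβ, hβ1, hβ2⟩
        refine ⟨A.mul_mem hα hβ, fun x => ?_, fun x hx => ?_⟩
        · have e : x⁻¹ * (α * β) x = (x⁻¹ * β x) * ((β x)⁻¹ * α (β x)) := by
            rw [MulAut.mul_apply]; group
          rw [e]
          exact L.mul_mem (hβ1 x) (hα1 _)
        · have e : x⁻¹ * (α * β) x = (x⁻¹ * β x) * ((β x)⁻¹ * α (β x)) := by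
            rw [MulAut.mul_apply]; group
          rw [e]
          exact (frattini S).mul_mem (hβ2 x hx) (hα2 _ (hLA β hβ x hx))
      inv_mem' := by
        rintro α ⟨hα, hα1, hα2⟩
        refine ⟨A.inv_mem hα, fun x => ?_, fun x hx => ?_⟩
        · have h := hα1 (α⁻¹ x)
          rw [MulAut.apply_inv_self] at h
          have := L.inv_mem h
          rwa [mul_inv_rev, inv_inv] at this
        · have h := hα2 (α⁻¹ x) (hLA _ (A.inv_mem hα) x hx)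
          rw [MulAut.apply_inv_self] at h
          have := (frattini S).inv_mem h
          rwa [mul_inv_rev, inv_inv] at this }
  refine ⟨K, fun κ hκ => hκ.1, ?_, ?_, ?_, ?_⟩
  · -- normalised by `A`
    rintro α hα κ ⟨hκ, hκ1, hκ2⟩
    refine ⟨A.mul_mem (A.mul_mem hα hκ) (A.inv_mem hα), fun x => ?_, fun x hx => ?_⟩
    · have e : x⁻¹ * (α * κ * α⁻¹) x = α ((α⁻¹ x)⁻¹ * κ (α⁻¹ x)) := by
        rw [MulAut.mul_apply, MulAut.mul_apply, map_mul, map_inv, MulAut.apply_inv_self]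
      rw [e]
      exact hLA α hα _ (hκ1 _)
    · have e : x⁻¹ * (α * κ * α⁻¹) x = α ((α⁻¹ x)⁻¹ * κ (α⁻¹ x)) := by
        rw [MulAut.mul_apply, MulAut.mul_apply, map_mul, map_inv, MulAut.apply_inv_self]
      rw [e]
      exact hΦA α hα _ (hκ2 _ (hLA _ (A.inv_mem hα) x hx))
  · -- `K` is a `p`-group
    rintro ⟨κ, hκ, hκ1, hκ2⟩
    have hLj : ∀ j : ℕ, ∀ l ∈ L,
        (((κ ^ j) l : S) : S ⧸ frattini S) = ((l : S) : S ⧸ frattini S) := by
      intro j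
      induction j with
      | zero => intro l _; simp
      | succ j ih =>
        intro l hl
        rw [pow_succ, MulAut.mul_apply, ih _ (hLA κ hκ l hl)]
        exact (QuotientGroup.eq.mpr (hκ2 l hl)).symm
    have hxj : ∀ j : ℕ, ∀ x : S, (((κ ^ j) x : S) : S ⧸ frattini S) =
        ((x : S) : S ⧸ frattini S) * ((x⁻¹ * κ x : S) : S ⧸ frattini S) ^ j := by
      intro j
      induction j with
      | zero => intro x; simp
      | succ j ih =>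
        intro x
        have e : (κ ^ (j + 1)) x = (κ ^ j) x * (κ ^ j) (x⁻¹ * κ x) := by
          rw [pow_succ, MulAut.mul_apply, ← map_mul, mul_inv_cancel_left]
        rw [e, QuotientGroup.mk_mul, ih x, hLj j _ (hκ1 x), pow_succ, mul_assoc]
    have hκp : ∀ x, (κ ^ p) x * x⁻¹ ∈ frattini S := by
      intro x
      rw [← QuotientGroup.eq_one_iff, QuotientGroup.mk_mul, hxj p x, ← QuotientGroup.mk_pow,
        (QuotientGroup.eq_one_iff _).mpr (hpowΦ _), mul_one, QuotientGroup.mk_inv, mul_inv_cancel]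
    have ho : orderOf κ ≠ 0 := (orderOf_pos κ).ne'
    obtain ⟨e, n', hn', hon⟩ := Nat.exists_eq_pow_mul_and_not_dvd ho p hp.ne_one
    have hβ1 : ((κ ^ p) ^ (p ^ e)) ^ n' = 1 := by
      rw [← pow_mul, ← pow_mul, ← hon, mul_comm, pow_mul, pow_orderOf_eq_one, one_pow]
    have hcop : n'.Coprime p := ((Nat.Prime.coprime_iff_not_dvd hp).mpr hn').symm
    have h1 := Cfsg.Agent.Lib.Helper30.aut_eq_one_of_frattini hS ((κ ^ p) ^ (p ^ e)) hcop hβ1
      (Cfsg.Agent.Lib.Helper30.aut_pow_mem_frattini (κ ^ p) hκp (p ^ e))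
    refine ⟨e + 1, Subtype.ext ?_⟩
    show κ ^ (p ^ (e + 1)) = 1
    rw [pow_succ', pow_mul]
    exact h1
  · rintro α hα β hβ
    refine ⟨A.mul_mem (A.mul_mem (A.mul_mem hα hβ) (A.inv_mem hα)) (A.inv_mem hβ),
      fun x => ?_, fun x hx => ?_⟩
    · exact secpow_commutator ⊤ L x₀ hgen0 (Subgroup.mem_top _) A
        (fun _ _ _ _ => Subgroup.mem_top _) hLA α β hα hβ x (Subgroup.mem_top _)
    · exact secpow_commutator L (frattini S) x₁ hgen1 hx₁L A hLA hΦA α β hα hβ x hx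
  · rintro α hα
    refine ⟨A.pow_mem hα _, fun x => ?_, fun x hx => ?_⟩
    · exact secpow_pow ⊤ L x₀ hgen0 (Subgroup.mem_top _) hp (fun x _ => hΦL (hpowΦ x)) A
        (fun _ _ _ _ => Subgroup.mem_top _) hLA α hα x (Subgroup.mem_top _)
    · exact secpow_pow L (frattini S) x₁ hgen1 hx₁L hp (fun x _ => hpowΦ x) A hLA hΦA α hα x hx

end Cfsg.Agent.Lib.Helper42
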