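import Cfsg.Agent.Lib.Helper42.Sec23

set_option autoImplicit false

namespace Cfsg.Agent.Lib.Helper42

/-! ### The trace map: fixed points of a group on an abelian normal `p`-subgroup are a direct
factor of the fixed points of a Sylow `p`-subgroup -/

section tracefac

variable {G : Type*} [Group G]

/-- conjugation by a normalizing element, restricted to the subgroup -/
def conjRes (M : Subgroup G) (n : G) (hn : n ∈ Subgroup.normalizer (M : Set G)) : ↥M →* ↥M :=
  ((MulAut.conj n).toMonoidHom.comp M.subtype).codRestrict M (fun m => by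
    show n * (m : G) * n⁻¹ ∈ M
    exact (Subgroup.mem_normalizer_iff.mp hn m).mp m.2)

theorem conjRes_coe (M : Subgroup G) (n : G) (hn : n ∈ Subgroup.normalizer (M : Set G)) (m : ↥M) :
    ((conjRes M n hn m : ↥M) : G) = n * m * n⁻¹ := rfl

theorem out_smul_decomp {N : Type*} [Group N] (S : Subgroup N) (n : N) (q : N ⧸ S) :
    ∃ s ∈ S, n * (Quotient.out q : N) = (Quotient.out (n • q) : N) * s := by
  refine ⟨(Quotient.out (n • q) : N)⁻¹ * (n * (Quotient.out q : N)), ?_, by group⟩
  rw [← QuotientGroup.eq]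
  rw [QuotientGroup.out_eq']
  have h1 : ((n * (Quotient.out q : N) : N) : N ⧸ S) = n • ((Quotient.out q : N) : N ⧸ S) := rfl
  rw [h1, QuotientGroup.out_eq']

/-- trace map: the fixed points of `N` on an abelian `p`-subgroup `M` normalized by `N` form a
direct factor of the fixed points of a Sylow `p`-subgroup `S` of `N`. -/
theorem fixed_points_direct_factor [Finite G] {p : ℕ} [Fact p.Prime] {N S M : Subgroup G}
    (hSN : S ≤ N) (hidx : ¬ p ∣ S.relIndex N) (hMp : IsPGroup p M)
    (hMab : ∀ a ∈ M, ∀ b ∈ M, a * b = b * a)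
    (hMN : N ≤ Subgroup.normalizer (M : Set G)) :
    ∃ K : Subgroup G, K ≤ M ⊓ Subgroup.centralizer (S : Set G) ∧
      (M ⊓ Subgroup.centralizer (N : Set G)) ⊓ K = ⊥ ∧
      (M ⊓ Subgroup.centralizer (N : Set G)) ⊔ K = M ⊓ Subgroup.centralizer (S : Set G) := by
  classical
  let _ : CommGroup ↥M :=
    { (inferInstance : Group ↥M) with mul_comm := fun a b => Subtype.ext (hMab a a.2 b b.2) }
  let ι := ↥N ⧸ S.subgroupOf N
  let _ : Fintype ι := Fintype.ofFinite ι
  let r : ι → ↥N := fun q => Quotient.out q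
  let c : ι → (↥M →* ↥M) := fun q => conjRes M (r q : G) (hMN (r q).2)
  let τf : ↥M → ↥M := fun m => ∏ q : ι, c q m
  have hτmul : ∀ a b : ↥M, τf (a * b) = τf a * τf b := by
    intro a b
    show ∏ q : ι, c q (a * b) = (∏ q : ι, c q a) * ∏ q : ι, c q b
    rw [← Finset.prod_mul_distrib]
    exact Finset.prod_congr rfl (fun q _ => map_mul (c q) a b)
  let τ : ↥M →* ↥M := MonoidHom.mk' τf hτmul
  have hk : Fintype.card ι = S.relIndex N := by
    rw [← Nat.card_eq_fintype_card, Subgroup.relIndex, Subgroup.index_eq_card]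
  have hcop : p.Coprime (Fintype.card ι) := by
    rw [hk]; exact (Nat.Prime.coprime_iff_not_dvd Fact.out).mpr hidx
  -- value on `N`-fixed points
  have hfix : ∀ m : ↥M, (m : G) ∈ Subgroup.centralizer (N : Set G) →
      τ m = m ^ Fintype.card ι := by
    intro m hm
    show ∏ q : ι, c q m = m ^ Fintype.card ι
    have h1 : ∀ q ∈ (Finset.univ : Finset ι), c q m = m := by
      intro q _
      apply Subtype.ext
      rw [conjRes_coe]
      have h2 := Subgroup.mem_centralizer_iff.mp hm (r q : G) (r q).2
      rw [h2]; group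
    rw [Finset.prod_congr rfl h1, Finset.prod_const, Finset.card_univ]
  -- `N`-invariance of the trace on `S`-fixed points
  have hinv : ∀ m : ↥M, (m : G) ∈ Subgroup.centralizer (S : Set G) →
      ((τ m : ↥M) : G) ∈ Subgroup.centralizer (N : Set G) := by
    intro m hm
    rw [Subgroup.mem_centralizer_iff]
    intro n hn
    have h1 : conjRes M n (hMN hn) (τ m) = τ m := by
      show conjRes M n (hMN hn) (∏ q : ι, c q m) = ∏ q : ι, c q m
      rw [map_prod]
      have h2 : ∀ q : ι, conjRes M n (hMN hn) (c q m) = c ((⟨n, hn⟩ : ↥N) • q) m := by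
        intro q
        obtain ⟨s, hs, hsq⟩ := out_smul_decomp (S.subgroupOf N) (⟨n, hn⟩ : ↥N) q
        apply Subtype.ext
        rw [conjRes_coe, conjRes_coe, conjRes_coe]
        have h3 : n * (r q : G) = (r ((⟨n, hn⟩ : ↥N) • q) : G) * (s : G) := by
          have := congrArg Subtype.val hsq
          simpa using this
        have h4 : (s : G) * (m : G) * (s : G)⁻¹ = m := by
          have h5 := Subgroup.mem_centralizer_iff.mp hm (s : G) (Subgroup.mem_subgroupOf.mp hs)
          rw [h5]; group
        calc n * ((r q : G) * (m : G) * (r q : G)⁻¹) * n⁻¹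
            = (n * (r q : G)) * (m : G) * (n * (r q : G))⁻¹ := by group
          _ = (r ((⟨n, hn⟩ : ↥N) • q) : G) * ((s : G) * (m : G) * (s : G)⁻¹) *
              (r ((⟨n, hn⟩ : ↥N) • q) : G)⁻¹ := by rw [h3]; group
          _ = _ := by rw [h4]
      rw [Finset.prod_congr rfl (fun q _ => h2 q)]
      exact Equiv.prod_comp (MulAction.toPerm (⟨n, hn⟩ : ↥N)) (fun q => c q m)
    have h6 := congrArg Subtype.val h1
    rw [conjRes_coe] at h6
    calc n * ((τ m : ↥M) : G) = (n * ((τ m : ↥M) : G) * n⁻¹) * n := by group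
      _ = ((τ m : ↥M) : G) * n := by rw [h6]
  have hcS : Subgroup.centralizer (N : Set G) ≤ Subgroup.centralizer (S : Set G) :=
    Subgroup.centralizer_le hSN
  refine ⟨(τ.ker).map M.subtype ⊓ Subgroup.centralizer (S : Set G), ?_, ?_, ?_⟩
  · exact inf_le_inf_right _ (Subgroup.map_subtype_le _)
  · rw [eq_bot_iff]
    rintro x ⟨⟨hxM, hxN⟩, ⟨⟨m, hm, rfl⟩, _⟩⟩
    rw [Subgroup.mem_bot]
    have h1 : τ m = 1 := hm
    rw [hfix m hxN] at h1
    obtain ⟨j, hj⟩ := hMp m
    have h2 : orderOf m ∣ Nat.gcd (Fintype.card ι) (p ^ j) :=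
      Nat.dvd_gcd (orderOf_dvd_of_pow_eq_one h1) (orderOf_dvd_of_pow_eq_one hj)
    have h3 : Nat.gcd (Fintype.card ι) (p ^ j) = 1 :=
      (Nat.Coprime.pow_right j hcop.symm)
    rw [h3, Nat.dvd_one, orderOf_eq_one_iff] at h2
    rw [h2]; rfl
  · apply le_antisymm
    · apply sup_le
      · exact inf_le_inf_left _ hcS
      · exact inf_le_inf_right _ (Subgroup.map_subtype_le _)
    · rintro x ⟨hxM, hxS⟩
      set m : ↥M := ⟨x, hxM⟩ with hm
      have htN := hinv m hxS
      -- a `k`-th root of `τ m` among the `N`-fixed points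
      set f : ↥M := (hMp.powEquiv hcop).symm (τ m) with hf
      have hfk : f ^ Fintype.card ι = τ m :=
        (hMp.powEquiv hcop).apply_symm_apply (τ m)
      have hfN : (f : G) ∈ Subgroup.centralizer (N : Set G) := by
        rw [Subgroup.mem_centralizer_iff]
        intro n hn
        have h1 : conjRes M n (hMN hn) f = f := by
          apply (hMp.powEquiv hcop).injective
          show (conjRes M n (hMN hn) f) ^ Fintype.card ι = f ^ Fintype.card ι
          rw [← map_pow, hfk]
          apply Subtype.ext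
          rw [conjRes_coe]
          have h2 := Subgroup.mem_centralizer_iff.mp htN n hn
          rw [h2]; group
        have h6 := congrArg Subtype.val h1
        rw [conjRes_coe] at h6
        calc n * (f : G) = (n * (f : G) * n⁻¹) * n := by group
          _ = (f : G) * n := by rw [h6]
      have hker : τ (m * f⁻¹) = 1 := by
        rw [map_mul, map_inv, hfix f hfN, hfk, mul_inv_cancel]
      have hx : x = (f : G) * ((m * f⁻¹ : ↥M) : G) := by
        have : (m : G) = (f : G) * ((m * f⁻¹ : ↥M) : G) := by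
          have h7 : m = f * (m * f⁻¹) := by rw [mul_comm m, mul_inv_cancel_left]
          exact congrArg Subtype.val h7
        exact this
      rw [hx]
      apply Subgroup.mul_mem_sup
      · exact ⟨f.2, hfN⟩
      · refine ⟨⟨m * f⁻¹, hker, rfl⟩, ?_⟩
        exact Subgroup.mul_mem _ hxS (Subgroup.inv_mem _ (hcS hfN))

end tracefac

end Cfsg.Agent.Lib.Helper42
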