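import Cfsg.Agent.Lib.Helper42.Sec24
import Cfsg.Agent.Lib.Helper41.Cores
import Cfsg.Agent.Lib.Helper26.SolvPSolv
import Cfsg.Agent.S0629

set_option autoImplicit false

namespace Cfsg.Agent.Lib.Helper42

/-! ### Weakly closed elements of a Sylow subgroup form a direct factor of its centre -/

section wcdf

universe u

variable {G : Type u} [Group G]

/-- the weak-closure predicate of the statement -/
def IsWC (S : Subgroup G) (x : G) : Prop :=
  x ∈ S ∧ ∀ g : G, g * x * g⁻¹ ∈ S → g * x * g⁻¹ = x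

theorem IsWC.mem_center {S : Subgroup G} {x : G} (h : IsWC S x) :
    x ∈ S ⊓ Subgroup.centralizer (S : Set G) := by
  refine ⟨h.1, ?_⟩
  show x ∈ Subgroup.centralizer (S : Set G)
  rw [Subgroup.mem_centralizer_iff]
  intro s hs
  have h1 := h.2 s (S.mul_mem (S.mul_mem hs h.1) (S.inv_mem hs))
  calc s * x = (s * x * s⁻¹) * s := by group
    _ = x * s := by rw [h1]

theorem normalizer_le_normalizer_center (R : Subgroup G) :
    Subgroup.normalizer (R : Set G) ≤
      Subgroup.normalizer ((R ⊓ Subgroup.centralizer (R : Set G) : Subgroup G) : Set G) := by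
  apply le_normalizer_of_conj_mem
  rintro n hn m ⟨hmR, hmC⟩
  refine ⟨(Subgroup.mem_normalizer_iff.mp hn m).mp hmR, ?_⟩
  have h1 := normalizer_le_normalizer_centralizer R hn
  exact (Subgroup.mem_normalizer_iff.mp h1 m).mp hmC

/-- the direct factor statement from a pair `(N, M)` -/
theorem wc_direct_factor_of_pair [Finite G] {p : ℕ} [Fact p.Prime] (S : Sylow p G)
    {N M : Subgroup G} (hSN : (S : Subgroup G) ≤ N) (hMS : M ≤ (S : Subgroup G))
    (hMab : ∀ a ∈ M, ∀ b ∈ M, a * b = b * a)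
    (hMN : N ≤ Subgroup.normalizer (M : Set G))
    (hZM : (S : Subgroup G) ⊓ Subgroup.centralizer ((S : Subgroup G) : Set G) ≤ M)
    (hiff : ∀ x : G, x ∈ M ⊓ Subgroup.centralizer (N : Set G) ↔ IsWC (S : Subgroup G) x) :
    ∃ W K : Subgroup G, (∀ x : G, x ∈ W ↔ (x ∈ (S : Subgroup G) ∧
        ∀ g : G, g * x * g⁻¹ ∈ (S : Subgroup G) → g * x * g⁻¹ = x)) ∧
      K ≤ ((S : Subgroup G) ⊓ Subgroup.centralizer ((S : Subgroup G) : Set G)) ∧ W ⊓ K = ⊥ ∧
      W ⊔ K = ((S : Subgroup G) ⊓ Subgroup.centralizer ((S : Subgroup G) : Set G)) := by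
  have hidx : ¬ p ∣ (S : Subgroup G).relIndex N := fun h =>
    S.not_dvd_index (h.trans (Subgroup.relIndex_dvd_index_of_le hSN))
  obtain ⟨K, hK, hbot, hsup⟩ := fixed_points_direct_factor hSN hidx (S.isPGroup'.to_le hMS)
    hMab hMN
  have hMC : M ⊓ Subgroup.centralizer ((S : Subgroup G) : Set G) =
      (S : Subgroup G) ⊓ Subgroup.centralizer ((S : Subgroup G) : Set G) := by
    apply le_antisymm
    · exact inf_le_inf_right _ hMS
    · exact le_inf hZM inf_le_right
  exact ⟨M ⊓ Subgroup.centralizer (N : Set G), K, hiff, hMC ▸ hK, hbot, hMC ▸ hsup⟩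

/-- odd `p`: the pair `(N_G(K_∞(S)), Z(K_∞(S)))` -/
theorem wc_direct_factor_odd [Finite G] {p : ℕ} [Fact p.Prime] (hp : p ≠ 2) (S : Sylow p G) :
    ∃ W K : Subgroup G, (∀ x : G, x ∈ W ↔ (x ∈ (S : Subgroup G) ∧
        ∀ g : G, g * x * g⁻¹ ∈ (S : Subgroup G) → g * x * g⁻¹ = x)) ∧
      K ≤ ((S : Subgroup G) ⊓ Subgroup.centralizer ((S : Subgroup G) : Set G)) ∧ W ⊓ K = ⊥ ∧
      W ⊔ K = ((S : Subgroup G) ⊓ Subgroup.centralizer ((S : Subgroup G) : Set G)) := by
  have hW : Cfsg.IsConjugacyFunctor p (Cfsg.inducedFunctor (G := G) Cfsg.kInfLower) :=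
    isConjugacyFunctor_induced (isCharPFunctor_kInfLower p) G
  have hWZ : ∀ P : Subgroup G, IsPGroup p ↥P →
      P ⊓ Subgroup.centralizer (P : Set G) ≤ Cfsg.inducedFunctor (G := G) Cfsg.kInfLower P :=
    fun P hP => (center_le_induced_kInf P hP).1
  have hSp : IsPGroup p (S : Subgroup G) := S.isPGroup'
  set R := Cfsg.inducedFunctor (G := G) Cfsg.kInfLower (S : Subgroup G) with hR
  have hRS : R ≤ (S : Subgroup G) := conjFunctor_le hW hSp
  have hSN : (S : Subgroup G) ≤ Subgroup.normalizer (R : Set G) :=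
    Subgroup.le_normalizer.trans (conjFunctor_normalizer_le hW hSp)
  have hZR : (S : Subgroup G) ⊓ Subgroup.centralizer ((S : Subgroup G) : Set G) ≤ R := hWZ _ hSp
  have hZM : (S : Subgroup G) ⊓ Subgroup.centralizer ((S : Subgroup G) : Set G) ≤
      R ⊓ Subgroup.centralizer (R : Set G) :=
    le_inf hZR (inf_le_right.trans (Subgroup.centralizer_le hRS))
  apply wc_direct_factor_of_pair S hSN (inf_le_left.trans hRS) ?_
    (normalizer_le_normalizer_center R) hZM
  · intro x
    constructor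
    · rintro ⟨hxM, hxN⟩
      refine ⟨hRS hxM.1, ?_⟩
      intro g hg
      have hAdm : Adm (Cfsg.inducedFunctor (G := G) Cfsg.kInfLower) 1 ⊤ (S : Subgroup G) {x} := by
        refine ⟨?_, ?_⟩
        · intro b hb
          rw [Set.mem_singleton_iff] at hb; subst hb
          exact ⟨b, ⟨hRS hxM.1, Subgroup.centralizer_le hSN hxN⟩, pow_one b⟩
        · intro n hn
          rw [mem_cstab_singleton]
          have := (Subgroup.mem_centralizer_iff.mp hxN) n hn.2
          rw [this]; group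
      have hwc := wc_quadratic_odd hp hW hWZ hloc_kInfLower _ ⊤ (S : Subgroup G) x rfl
        (sylow_isSylIn S) hAdm
      have h1 := hwc g trivial (by
        rintro _ ⟨a, ha, rfl⟩
        rw [Set.mem_singleton_iff] at ha; subst ha; exact hg)
      exact mem_cstab_singleton.mp h1
    · intro hx
      have hxZ := hx.mem_center
      refine ⟨hZM hxZ, ?_⟩
      show x ∈ Subgroup.centralizer ((Subgroup.normalizer (R : Set G) : Subgroup G) : Set G)
      rw [Subgroup.mem_centralizer_iff]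
      intro n hn
      have h1 : n * x * n⁻¹ ∈ R := (Subgroup.mem_normalizer_iff.mp hn x).mp (hZR hxZ)
      have h2 := hx.2 n (hRS h1)
      calc n * x = (n * x * n⁻¹) * n := by group
        _ = x * n := by rw [h2]
  · rintro a ⟨_, haC⟩ b ⟨hbR, _⟩
    exact ((Subgroup.mem_centralizer_iff.mp haC) b hbR).symm

/-- solvable `G`: the pair `(N_G(S ∩ O_{p',p}(G)), Z(S ∩ O_{p',p}(G)))` -/
theorem wc_direct_factor_solvable [Finite G] {p : ℕ} [Fact p.Prime] (hsol : Group.IsSolvable G)
    (S : Sylow p G) :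
    ∃ W K : Subgroup G, (∀ x : G, x ∈ W ↔ (x ∈ (S : Subgroup G) ∧
        ∀ g : G, g * x * g⁻¹ ∈ (S : Subgroup G) → g * x * g⁻¹ = x)) ∧
      K ≤ ((S : Subgroup G) ⊓ Subgroup.centralizer ((S : Subgroup G) : Set G)) ∧ W ⊓ K = ⊥ ∧
      W ⊔ K = ((S : Subgroup G) ⊓ Subgroup.centralizer ((S : Subgroup G) : Set G)) := by
  have hLn : (Cfsg.pPrimePCore p G).Normal := Helper41.pPrimePCore_normal' p
  have hOn : (Cfsg.pPrimeCore p G).Normal := Cfsg.pPrimeCore_normal p G
  have hSp : IsPGroup p (S : Subgroup G) := S.isPGroup'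
  have hSN : (S : Subgroup G) ≤
      Subgroup.normalizer (((S : Subgroup G) ⊓ Cfsg.pPrimePCore p G : Subgroup G) : Set G) := by
    apply le_normalizer_of_conj_mem
    rintro s hs n ⟨hnS, hnL⟩
    exact ⟨S.mul_mem (S.mul_mem hs hnS) (S.inv_mem hs), hLn.conj_mem n hnL s⟩
  obtain ⟨P, hP⟩ := Helper41.exists_sylow_of_normal S (Cfsg.pPrimePCore p G)
  have hcon : Cfsg.IsPConstrained p G := by
    apply Cfsg.Agent.S0629.result P
    have hs' : Group.IsSolvable ↥(Subgroup.centralizer
        (((P : Subgroup ↥(Cfsg.pPrimePCore p G)).map (Cfsg.pPrimePCore p G).subtype :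
          Subgroup G) : Set G)) := inferInstance
    exact Helper26.isPSolvable_of_isSolvable p _ _ rfl hs'
  have hCQ : Subgroup.centralizer
      (((S : Subgroup G) ⊓ Cfsg.pPrimePCore p G : Subgroup G) : Set G) ≤ Cfsg.pPrimePCore p G := by
    have := hcon P
    rwa [hP] at this
  have hZQ : (S : Subgroup G) ⊓ Subgroup.centralizer ((S : Subgroup G) : Set G) ≤
      (S : Subgroup G) ⊓ Cfsg.pPrimePCore p G :=
    le_inf inf_le_left ((inf_le_right.trans (Subgroup.centralizer_le inf_le_left)).trans hCQ)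
  have hZM : (S : Subgroup G) ⊓ Subgroup.centralizer ((S : Subgroup G) : Set G) ≤
      ((S : Subgroup G) ⊓ Cfsg.pPrimePCore p G) ⊓ Subgroup.centralizer
        (((S : Subgroup G) ⊓ Cfsg.pPrimePCore p G : Subgroup G) : Set G) :=
    le_inf hZQ (inf_le_right.trans (Subgroup.centralizer_le inf_le_left))
  apply wc_direct_factor_of_pair S hSN (inf_le_left.trans inf_le_left) ?_
    (normalizer_le_normalizer_center _) hZM
  · intro x
    constructor
    · rintro ⟨hxM, hxN⟩
      have hxS : x ∈ (S : Subgroup G) := hxM.1.1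
      refine ⟨hxS, ?_⟩
      intro g hg
      have hfr := Helper41.frattini_inf S (Cfsg.pPrimePCore p G)
      have hg' : g ∈ Subgroup.normalizer
          (((S : Subgroup G) ⊓ Cfsg.pPrimePCore p G : Subgroup G) : Set G) ⊔
            Cfsg.pPrimePCore p G := by rw [hfr]; trivial
      obtain ⟨n, hn, l, hl, rfl⟩ := mem_sup_normal_right hg'
      obtain ⟨s, hs, d, hd, rfl⟩ := Helper41.pPrimePCore_decomp S hl
      have hns : n * s ∈ Subgroup.normalizer
          (((S : Subgroup G) ⊓ Cfsg.pPrimePCore p G : Subgroup G) : Set G) :=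
        Subgroup.mul_mem _ hn (Subgroup.le_normalizer hs)
      have hd'O : (n * s) * d * (n * s)⁻¹ ∈ Cfsg.pPrimeCore p G := hOn.conj_mem d hd (n * s)
      have hcomm : (n * s) * x * (n * s)⁻¹ = x := by
        have := Subgroup.mem_centralizer_iff.mp hxN (n * s) hns
        rw [this]; group
      have e : n * (s * d) * x * (n * (s * d))⁻¹ =
          ((n * s) * d * (n * s)⁻¹) * x * ((n * s) * d * (n * s)⁻¹)⁻¹ := by
        calc n * (s * d) * x * (n * (s * d))⁻¹
            = ((n * s) * d * (n * s)⁻¹) * ((n * s) * x * (n * s)⁻¹) *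
              ((n * s) * d * (n * s)⁻¹)⁻¹ := by group
          _ = _ := by rw [hcomm]
      rw [e] at hg ⊢
      generalize (n * s) * d * (n * s)⁻¹ = d' at hd'O hg ⊢
      have h1 : d' * x * d'⁻¹ * x⁻¹ ∈ Cfsg.pPrimeCore p G := by
        have h0 := Subgroup.mul_mem _ hd'O (hOn.conj_mem _ (Subgroup.inv_mem _ hd'O) x)
        have e2 : d' * (x * d'⁻¹ * x⁻¹) = d' * x * d'⁻¹ * x⁻¹ := by group
        rwa [e2] at h0
      have h2 : d' * x * d'⁻¹ * x⁻¹ ∈ (S : Subgroup G) := S.mul_mem hg (S.inv_mem hxS)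
      have h3 := Helper41.eq_one_of_mem_pGroup_of_mem_pPrimeCore (S : Subgroup G) hSp h2 h1
      calc d' * x * d'⁻¹ = (d' * x * d'⁻¹ * x⁻¹) * x := by group
        _ = x := by rw [h3, one_mul]
    · intro hx
      have hxZ := hx.mem_center
      refine ⟨hZM hxZ, ?_⟩
      show x ∈ Subgroup.centralizer ((Subgroup.normalizer
        (((S : Subgroup G) ⊓ Cfsg.pPrimePCore p G : Subgroup G) : Set G) : Subgroup G) : Set G)
      rw [Subgroup.mem_centralizer_iff]
      intro n hn
      have h1 : n * x * n⁻¹ ∈ (S : Subgroup G) ⊓ Cfsg.pPrimePCore p G :=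
        (Subgroup.mem_normalizer_iff.mp hn x).mp (hZQ hxZ)
      have h2 := hx.2 n h1.1
      calc n * x = (n * x * n⁻¹) * n := by group
        _ = x * n := by rw [h2]
  · rintro a ⟨_, haC⟩ b ⟨hbR, _⟩
    exact ((Subgroup.mem_centralizer_iff.mp haC) b hbR).symm

end wcdf

end Cfsg.Agent.Lib.Helper42
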